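import Mathlib

/-! Facts on `Z₂ × A₅`, by computation. -/

set_option autoImplicit false

namespace Cfsg.Agent.E11

open Equiv Equiv.Perm

/-- the alternating group of degree 5 -/
abbrev A5 : Type := ↥(alternatingGroup (Fin 5))

/-- the group `Z₂ × A₅` -/
abbrev ZA : Type := Multiplicative (ZMod 2) × A5

theorem a5_1 : ∀ x : A5, ∃ a : A5, a * a = 1 ∧ a * x * (a * x) = 1 ∧ (x = 1 ∨ a ≠ 1) := by
  decide +kernel

theorem a5_2 : ∀ x : A5, x ^ 5 = 1 → x ≠ 1 → ∀ g : A5, g * x = x * g →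
    ∃ i : Fin 5, g = x ^ i.1 := by
  decide +kernel

theorem a5_3 : ∀ x : A5, x * x = 1 → x ≠ 1 → ∀ y : A5, y * y = 1 → y ≠ 1 →
    ∃ g : A5, g * x = y * g := by
  decide +kernel

theorem a5_4 : (Finset.univ.filter fun x : ZA => x * x = 1).card = 32 := by
  decide +kernel

theorem a5_5 : ∀ x : A5, (∀ g : A5, g * x = x * g) → x = 1 := by
  decide +kernel

end Cfsg.Agent.E11
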