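import Mathlib
import Cfsg.Agent.Char.DihTwoP
import Cfsg.Agent.Char.DefectZero

/-! A character-theoretic non-existence lemma (self-centralizing subgroup of order 5). -/

set_option autoImplicit false
set_option linter.unusedSectionVars false

namespace Cfsg.Agent.E11

open Subgroup Cfsg.Agent.Char Cfsg.Agent.Char.SelfC Cfsg.Agent.Grp.SelfCent

theorem numC {m e D w : ℕ} (hm : m % 5 = 1) (h1 : 1 < m) (he : 0 < e)
    (hD : D = e * m + 1 ∨ D + 1 = e * m) (h2 : e ∣ 5 * (11 * m + 1))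
    (h3 : D ∣ 5 * m * (11 * m + 1)) (h4 : e * D * (11 * m + 1) = w ^ 2) : False := by
  have c1 : Nat.Coprime D (e * m) := by
    rcases hD with h | h
    · rw [h]; simp
    · rw [← h]; simp
  have h5 : e * D ∣ 5 * (11 * m + 1) := c1.coprime_mul_right_right.symm.mul_dvd_of_dvd_of_dvd h2
    (c1.coprime_mul_left_right.dvd_of_dvd_mul_left (by rwa [mul_left_comm, ← mul_assoc]))
  have c5 : Nat.Coprime 5 (11 * m + 1) := (Nat.Prime.coprime_iff_not_dvd (by norm_num)).2 (by omega)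
  generalize hn : e * D = n at h4 h5
  have h6 : n ∣ 11 * m + 1 := by
    refine Nat.Coprime.dvd_of_dvd_mul_left ((Nat.Prime.coprime_iff_not_dvd
      (by norm_num)).2 fun h => ?_).symm h5
    have h7 : 5 ∣ w := Nat.Prime.dvd_of_dvd_pow (by norm_num) (h4 ▸ h.mul_right _)
    have h8 : 5 ^ 2 ∣ n := (c5.pow_left 2).dvd_of_dvd_mul_right (h4 ▸ pow_dvd_pow_of_dvd h7 2)
    have h9 := h8.trans h5
    omega
  obtain ⟨k, hk⟩ := h6
  have n0 : 0 < n := Nat.pos_of_ne_zero fun h => by simp [h] at hk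
  obtain ⟨i, rfl⟩ : n ∣ w := (Nat.pow_dvd_pow_iff two_ne_zero).1 ⟨k, by rw [← h4, hk]; ring⟩
  have h7 : k = i ^ 2 := Nat.eq_of_mul_eq_mul_left (pow_pos n0 2) (by rw [← mul_pow, ← h4, hk]; ring)
  subst h7 hn
  have i0 : 0 < i := Nat.pos_of_ne_zero fun h => by simp [h] at hk
  have h8 : i ≤ i * e := Nat.le_mul_of_pos_right _ he
  have h9 : e ≤ i * e := Nat.le_mul_of_pos_left _ i0
  rcases hD with rfl | h
  · by_cases hs : i * e ≤ 3
    · have : i ≤ 3 := by omega
      have : e ≤ 3 := by omega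
      interval_cases i <;> interval_cases e <;> omega
    · have : 4 * 4 * m ≤ (i * e) * (i * e) * m :=
        Nat.mul_le_mul_right _ (Nat.mul_le_mul (by omega) (by omega))
      nlinarith
  · have h10 : 11 * m + 1 + i * (i * e) = (i * e) * (i * e) * m := by
      rw [hk, show i * e * (i * e) * m = i ^ 2 * e * (e * m) by ring, ← h]; ring
    generalize i * e = s at h8 h10
    have h11 : i * s ≤ s * s := Nat.mul_le_mul_right _ h8
    obtain ⟨r, rfl⟩ : ∃ r, m = r + 1 := ⟨m - 1, by omega⟩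
    by_cases hs : s ≤ 3
    · have : s * s ≤ 3 * 3 := Nat.mul_le_mul hs hs
      nlinarith
    · have : 4 * 4 * r ≤ s * s * r := Nat.mul_le_mul_right _ (Nat.mul_le_mul (by omega) (by omega))
      have : 5 ≤ r := by omega
      nlinarith

variable {G : Type*} [Group G]

theorem lemC [Finite G] {x u : G} {m : ℕ} (hx : orderOf x = 5)
    (hC : centralizer ({x} : Set G) = zpowers x)
    (he : (zpowers x).relIndex (normalizer ((zpowers x : Subgroup G) : Set G)) = 2)
    (hu : orderOf u = 2) (huN : u ∈ normalizer ((zpowers x : Subgroup G) : Set G))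
    (hm : m % 5 = 1) (h1 : 1 < m) (hG : Nat.card G = 5 * m * (11 * m + 1))
    (hc : 3 * Nat.card (centralizer ({u} : Set G)) = 11 * m + 1)
    (hU : ∀ p q : ℕ, p.Prime → q.Prime → p ∣ m → q ∣ m →
      ∃ g : G, p ∣ orderOf g ∧ q ∣ orderOf g ∧ ¬ 5 ∣ orderOf g) : False := by
  classical
  have := Fintype.ofFinite G
  have : Fact (Nat.Prime 5) := ⟨by norm_num⟩
  have hw := Complex.isPrimitiveRoot_exp 5 (by omega)
  set w := Complex.exp (2 * Real.pi * Complex.I / (5 : ℕ))
  obtain ⟨χ, θ, hχ, hθ, -, -, hint, ε, hε, hv, hr⟩ := exists_pair hx hC he le_rfl hw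
  have hε2 : (ε : ℂ) * ε = 1 := by rcases hε with rfl | rfl <;> simp
  have hup : ¬ 5 ∣ orderOf u := by omega
  have h1p : ¬ 5 ∣ orderOf (1 : G) := by simp
  let β : G → ℂ := (fun _ => 1) + (ε : ℂ) • (χ - θ)
  have hβ : IsClassFunction G β := (isClassFunction_const 1).add
    ((hχ.isClassFunction.sub hθ.isClassFunction).smul _)
  have e1 := sum_pairs_sing hx hC he (by omega) hβ (fun g hg => by
    simp only [β, Pi.add_apply, Pi.smul_apply, Pi.sub_apply, hr g hg, smul_eq_mul]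
    linear_combination -hε2) hu
  have e2 : ∑ j ∈ Finset.Ico 1 5, β (x ^ j) = 2 * (5 : ℕ) := by
    rw [Finset.sum_congr rfl (g := fun j => 2 - tw w j) fun j hj => by
      simp only [β, Pi.add_apply, Pi.smul_apply, Pi.sub_apply, (hv j hj).1, (hv j hj).2,
        smul_eq_mul]
      linear_combination (1 - tw w j) * hε2,
      Finset.sum_sub_distrib, sum_const_Ico (by norm_num), sum_tw_one hw (by omega)]
    ring
  have e3 := hχ.sum_class_mul_inv u u
  have e4 := hθ.sum_class_mul_inv u u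
  have e5 := isIrrCharacter_one.sum_class_mul_inv (G := G) u u
  obtain ⟨c, hc'⟩ := hint u
  rw [hr u hup, hr 1 h1p, hc', map_add, map_intCast, map_intCast] at e4
  rw [hc', map_intCast] at e3
  simp only [β, Pi.add_apply, Pi.smul_apply, Pi.sub_apply, smul_eq_mul, Finset.sum_add_distrib,
    ← Finset.mul_sum, Finset.sum_sub_distrib] at e1
  simp only [map_one, mul_one, one_mul] at e5
  simp only [β, Pi.add_apply, Pi.smul_apply, Pi.sub_apply, smul_eq_mul, Finset.sum_add_distrib,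
    ← Finset.mul_sum, Finset.sum_sub_distrib] at e2
  rw [e2, e5, card_class_inter hx hC he (by omega) hu huN, mul_comm _ (2 * ((5 : ℕ) : ℂ))] at e1
  have e7 := mul_left_cancel₀ (by norm_num) e1
  have e6 : (centralizer ({u} : Set G)).index = 15 * m := by
    have := (centralizer ({u} : Set G)).index_mul_card
    rw [hG, ← hc] at this
    exact Nat.eq_of_mul_eq_mul_right Nat.card_pos (this.trans (by ring))
  obtain ⟨d, hd⟩ := hχ.isCharacter.exists_nat_one
  obtain ⟨d', hd'⟩ := hθ.isCharacter.exists_nat_one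
  have hdd : (d' : ℂ) = d + ε := by rw [← hd', hr 1 h1p, hd]
  rw [e6, hd] at e3 e4
  rw [e6, hG] at e7
  have e8 : (d * d' * (11 * m + 1) : ℂ) = 9 * m * (d - c) ^ 2 := by
    apply mul_left_cancel₀ (show (25 * m : ℂ) ≠ 0 by simp; omega)
    rw [hdd]
    push_cast at e3 e4 e7
    linear_combination (-(d : ℂ) * (d + ε)) * e7 + (ε * (d + ε)) * e3 - (ε * d) * e4 +
      225 * m * m * (c ^ 2 - 2 * d * c - d * ε) * hε2
  have e9 : d * d' * (11 * m + 1) = m * (3 * (d - c : ℤ).natAbs) ^ 2 := by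
    have : (d * d' * (11 * m + 1) : ℤ) = 9 * m * (d - c) ^ 2 := by exact_mod_cast e8
    zify
    rw [this, mul_pow, sq_abs]
    ring
  generalize 3 * (d - c : ℤ).natAbs = z at e9
  have hdd' : (d' : ℤ) = d + ε := by exact_mod_cast hdd
  have hD : d' = d + 1 ∨ d' + 1 = d := by omega
  have cd : Nat.Coprime d d' := by
    rcases hD with h | h
    · rw [h]; simp
    · rw [← h]; simp
  have cm : Nat.Coprime m (11 * m + 1) := by simp
  have md : m ∣ d * d' := cm.dvd_of_dvd_mul_right ⟨_, e9⟩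
  have van : ∀ {ψ : G → ℂ} {a b p : ℕ}, IsIrrCharacter G ψ → ψ 1 = a → Nat.Coprime a b →
      m ∣ a * b → p.Prime → p ∣ m → p ∣ a → ∀ g : G, p ∣ orderOf g → ψ g = 0 := by
    intro ψ a b p h2 h3 h4 h5 hp h6 h7 g hg
    refine h2.eq_zero_of_pow_dvd (n := m.factorization p) hp h3 (fun h8 => ?_)
      (((h4.coprime_dvd_left h7).pow_left _).dvd_of_dvd_mul_right
        ((Nat.ordProj_dvd m p).trans h5)) hg
    refine Nat.pow_succ_factorization_not_dvd (by omega : m ≠ 0) hp
      (Nat.Coprime.dvd_of_dvd_mul_right (n := 5 * (11 * m + 1)) (Nat.Coprime.pow_left _ ?_)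
        (by rwa [hG, mul_comm 5, mul_assoc] at h8))
    refine Nat.Coprime.mul_right ((Nat.coprime_primes hp (by norm_num)).2 ?_)
      (cm.coprime_dvd_left h6)
    rintro rfl
    omega
  have d1 := hG ▸ hχ.deg_dvd_card hd
  have d2 := hG ▸ hθ.deg_dvd_card hd'
  have fin : ∀ a b : ℕ, m ∣ a → (b = a + 1 ∨ b + 1 = a) → a ∣ 5 * m * (11 * m + 1) →
      b ∣ 5 * m * (11 * m + 1) → a * b * (11 * m + 1) = m * z ^ 2 → False := by
    rintro _ b ⟨e, rfl⟩ h2 h3 h4 h5
    refine numC (e := e) (w := z) hm h1 (Nat.pos_of_ne_zero ?_) (by rwa [mul_comm e])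
      (Nat.dvd_of_mul_dvd_mul_left (by omega : 0 < m) (by rwa [← mul_assoc, mul_comm m 5])) h4
      (Nat.eq_of_mul_eq_mul_left (by omega : 0 < m) (by rw [← h5]; ring))
    rintro rfl
    simp at h3
    omega
  by_cases c1 : Nat.Coprime m d
  · exact fin d' d (c1.dvd_of_dvd_mul_left md) (by omega) d2 d1 (by rwa [mul_comm d'])
  by_cases c2 : Nat.Coprime m d'
  · exact fin d d' (c2.dvd_of_dvd_mul_right md) hD d1 d2 e9
  obtain ⟨p, hp, p1, p2⟩ := Nat.Prime.not_coprime_iff_dvd.1 c1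
  obtain ⟨q, hq, q1, q2⟩ := Nat.Prime.not_coprime_iff_dvd.1 c2
  obtain ⟨g, g1, g2, g3⟩ := hU p q hp hq p1 q1
  have := hr g g3
  rw [van hχ hd cd md hp p1 p2 g g1, van hθ hd' cd.symm (by rwa [mul_comm]) hq q1 q2 g g2,
    zero_add] at this
  rw [← this] at hε2
  simp at hε2

end Cfsg.Agent.E11
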